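-- Team project SAF (S4025), package [EMBF] (helper97): the semi-affine embedding of
-- `N ⧸ O_{p'}(N)` for the abstract field of `Semi0`, and `pkgEmb_of` from the transport [GALT].
import Mathlib
import Cfsg.Agent.Lib.Helper49.SAF.Iface
import Cfsg.Agent.Lib.Helper22.PComp
import Cfsg.Agent.Lib.Helper84.SAF.Ker

set_option autoImplicit false

namespace Cfsg.Agent.Lib.Helper97.SAF

open Cfsg.Agent.Lib.Helper49.SAFI Cfsg.Agent.Lib.Helper49.HUP

universe u v

/-- [EMBF]: steps (1)-(5) of [EMB] for an abstract finite field `F`. -/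
theorem embF {p n : ℕ} [Fact p.Prime] {N : Type v} [Group N] [Finite N] (Q : Subgroup N)
    {V : Type u} [AddCommGroup V] [Module (ZMod p) V] (ψ : Q ≃ V) (ρ : N →* (V ≃ₗ[ZMod p] V))
    (hS : Setup p n Q) (hn : n ≠ 0) (hL : IsLin Q ψ ρ)
    (F : Type) [Field F] [Fintype F] (e : V ≃+ F)
    (he : ∀ g : N, ∃ (a : F) (σ : F ≃+* F), ∀ v : V, e (ρ g v) = a * σ (e v)) :
    ∃ f : N ⧸ Cfsg.pPrimeCore p N →* ↥(Cfsg.semiaffineGroup F), Function.Injective f := by
  classical
  have hp : p.Prime := Fact.out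
  haveI : Q.Normal := hS.normal
  obtain ⟨hψ, hρ⟩ := hL
  obtain ⟨L, hQL⟩ := Subgroup.exists_right_complement'_of_coprime hS.cop
  have hLQ : Subgroup.IsComplement' L Q := hQL.symm
  let r : N →* L := (hLQ.QuotientMulEquiv).toMonoidHom.comp (QuotientGroup.mk' Q)
  have hr1 : ∀ g : N, (QuotientGroup.mk (r g : N) : N ⧸ Q) = QuotientGroup.mk g := by
    intro g
    exact hLQ.QuotientMulEquiv.symm_apply_apply (QuotientGroup.mk g)
  have hr2 : ∀ g : N, g * (r g : N)⁻¹ ∈ Q := by
    intro g
    have h1 : (r g : N)⁻¹ * g ∈ Q := QuotientGroup.eq.mp (hr1 g)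
    have h2 := hS.normal.conj_mem _ h1 (r g : N)
    have h3 : (r g : N) * ((r g : N)⁻¹ * g) * (r g : N)⁻¹ = g * (r g : N)⁻¹ := by group
    rwa [h3] at h2
  have hψ1 : ψ 1 = 0 := by
    have h := hψ 1 1
    rw [mul_one] at h
    exact add_eq_left.mp h.symm
  have hρQ : ∀ u : N, u ∈ Q → ρ u = 1 := by
    intro u hu
    ext v
    obtain ⟨x, rfl⟩ := ψ.surjective v
    have hmem : u * (x : N) * u⁻¹ ∈ Q := hS.normal.conj_mem _ x.2 u
    rw [hρ u x hmem]
    show ψ ⟨u * (x : N) * u⁻¹, hmem⟩ = ψ x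
    congr 1
    apply Subtype.ext
    show u * (x : N) * u⁻¹ = x
    rw [hS.comm u hu x x.2, mul_inv_cancel_right]
  let uq : N → Q := fun g => ⟨g * (r g : N)⁻¹, hr2 g⟩
  let c : N → V := fun g => ψ (uq g)
  have hρr : ∀ g : N, ρ (r g : N) = ρ g := by
    intro g
    have h1 : g = (g * (r g : N)⁻¹) * (r g : N) := by group
    have h2 : ρ g = ρ (g * (r g : N)⁻¹) * ρ (r g : N) := by rw [← map_mul, ← h1]
    rw [h2, hρQ _ (hr2 g), one_mul]
  have hc : ∀ g g' : N, c (g * g') = c g + ρ g (c g') := by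
    intro g g'
    have hmem : (r g : N) * (uq g' : N) * (r g : N)⁻¹ ∈ Q := hS.normal.conj_mem _ (uq g').2 _
    have h1 : uq (g * g') = uq g * ⟨(r g : N) * (uq g' : N) * (r g : N)⁻¹, hmem⟩ := by
      apply Subtype.ext
      show g * g' * ((r (g * g') : L) : N)⁻¹ =
        g * (r g : N)⁻¹ * ((r g : N) * (g' * (r g' : N)⁻¹) * (r g : N)⁻¹)
      rw [map_mul, Subgroup.coe_mul]
      group
    show ψ (uq (g * g')) = ψ (uq g) + ρ g (ψ (uq g'))
    rw [h1, hψ, ← hρr g, hρ (r g : N) (uq g') hmem]
  have hc1 : c 1 = 0 := by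
    have h := hc 1 1
    rw [mul_one, map_one] at h
    have h' : c 1 = c 1 + c 1 := h
    exact add_eq_left.mp h'.symm
  let A : N → F → F := fun g y => e (c g) + e (ρ g (e.symm y))
  have hA_mul : ∀ (g g' : N) (y : F), A (g * g') y = A g (A g' y) := by
    intro g g' y
    show e (c (g * g')) + e (ρ (g * g') (e.symm y)) =
      e (c g) + e (ρ g (e.symm (e (c g') + e (ρ g' (e.symm y)))))
    simp only [hc, map_add, AddEquiv.symm_apply_apply, map_mul, LinearEquiv.mul_apply, add_assoc]
  have hA_one : ∀ y : F, A 1 y = y := by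
    intro y
    show e (c 1) + e (ρ 1 (e.symm y)) = y
    rw [hc1, map_zero, zero_add, map_one]
    exact e.apply_symm_apply y
  let Φ : N →* Equiv.Perm F := MonoidHom.mk' (fun g =>
      { toFun := A g
        invFun := A g⁻¹
        left_inv := fun y => by rw [← hA_mul, inv_mul_cancel, hA_one]
        right_inv := fun y => by rw [← hA_mul, mul_inv_cancel, hA_one] })
    (fun g g' => Equiv.ext (fun y => hA_mul g g' y))
  have hΦ : ∀ (g : N) (y : F), Φ g y = e (c g) + e (ρ g (e.symm y)) := fun g y => rfl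
  have hV : Nontrivial V := by
    haveI : Finite V := Finite.of_equiv Q ψ
    rw [← Finite.one_lt_card_iff_nontrivial, ← Nat.card_congr ψ, hS.card]
    exact Nat.one_lt_pow hn hp.one_lt
  have hmem : ∀ g : N, Φ g ∈ Cfsg.semiaffineGroup F := by
    intro g
    obtain ⟨a, σ, ha⟩ := he g
    have ha0 : a ≠ 0 := by
      rintro rfl
      obtain ⟨v, hv⟩ := exists_ne (0 : V)
      have h1 := ha v
      rw [zero_mul] at h1
      exact hv (by simpa using h1)
    refine ⟨Units.mk0 a ha0, e (c g), σ, fun x => ?_⟩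
    rw [hΦ, ha, AddEquiv.apply_symm_apply, Units.val_mk0, add_comm]
  let f0 : N →* ↥(Cfsg.semiaffineGroup F) := Φ.codRestrict _ hmem
  have hker : Φ.ker = Cfsg.pPrimeCore p N := by
    apply le_antisymm
    · apply Cfsg.Agent.Lib.Helper22.le_pPrimeCore_of_normal p (MonoidHom.normal_ker Φ)
      have hle : Φ.ker ≤ L := by
        intro g hg
        rw [MonoidHom.mem_ker] at hg
        have h0 : Φ g 0 = 0 := by
          rw [hg]
          rfl
        rw [hΦ, map_zero, map_zero, map_zero, add_zero] at h0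
        have h1 : c g = 0 := (AddEquiv.map_eq_zero_iff e).mp h0
        have h2 : uq g = 1 := ψ.injective (h1.trans hψ1.symm)
        have h3 : g * (r g : N)⁻¹ = 1 := congrArg Subtype.val h2
        have h4 : g = (r g : N) := mul_inv_eq_one.mp h3
        rw [h4]
        exact (r g).2
      have hcopL : (Nat.card L).Coprime p := by
        have h1 : (Nat.card Q).Coprime (Nat.card L) := by
          rw [← hLQ.index_eq_card]
          exact hS.cop
        rw [hS.card] at h1
        exact (Nat.Coprime.coprime_dvd_left (dvd_pow_self p hn) h1).symm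
      exact Nat.Coprime.coprime_dvd_left (Subgroup.card_dvd_of_le hle) hcopL
    · intro k hk
      rw [MonoidHom.mem_ker]
      have hρk : ρ k = 1 := MonoidHom.mem_ker.mp
        ((Cfsg.Agent.Lib.Helper84.SAF.pkgKer' Q ψ ρ hS hn ⟨hψ, hρ⟩).1 hk)
      have hpow : ∀ m : ℕ, c (k ^ m) = m • c k := by
        intro m
        induction m with
        | zero =>
          rw [pow_zero, zero_smul]
          exact hc1
        | succ m ih =>
          have h1 : ρ (k ^ m) = 1 := by rw [map_pow, hρk, one_pow]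
          have h2 : ρ (k ^ m) (c k) = c k := DFunLike.congr_fun h1 (c k)
          rw [pow_succ, hc, ih, h2, succ_nsmul]
      have hkm : k ^ Nat.card (Cfsg.pPrimeCore p N) = 1 := by
        have h1 : (⟨k, hk⟩ : Cfsg.pPrimeCore p N) ^ Nat.card (Cfsg.pPrimeCore p N) = 1 :=
          pow_card_eq_one'
        exact congrArg Subtype.val h1
      have hck : c k = 0 := by
        have h1 := hpow (Nat.card (Cfsg.pPrimeCore p N))
        rw [hkm, hc1] at h1
        have h2 : ((Nat.card (Cfsg.pPrimeCore p N) : ℕ) : ZMod p) • c k = 0 := by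
          rw [Nat.cast_smul_eq_nsmul]
          exact h1.symm
        rcases smul_eq_zero.mp h2 with h3 | h3
        · exfalso
          rw [ZMod.natCast_eq_zero_iff] at h3
          exact (Nat.Prime.coprime_iff_not_dvd hp).mp
            (Cfsg.Agent.Lib.Helper22.card_pPrimeCore_coprime p N).symm h3
        · exact h3
      apply Equiv.ext
      intro y
      rw [hΦ, hck, hρk, map_zero, zero_add]
      exact e.apply_symm_apply y
  refine ⟨QuotientGroup.lift (Cfsg.pPrimeCore p N) f0 ?_, ?_⟩
  · intro k hk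
    rw [MonoidHom.mem_ker]
    apply Subtype.ext
    have h1 : k ∈ Φ.ker := by
      rw [hker]
      exact hk
    exact MonoidHom.mem_ker.mp h1
  · rw [injective_iff_map_eq_one]
    intro q hq
    induction q using QuotientGroup.induction_on with
    | H g =>
      rw [QuotientGroup.lift_mk] at hq
      have h1 : Φ g = 1 := congrArg Subtype.val hq
      have h2 : g ∈ Cfsg.pPrimeCore p N := by
        rw [← hker]
        exact MonoidHom.mem_ker.mpr h1
      exact (QuotientGroup.eq_one_iff g).mpr h2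

/-- The transport package [GALT] (semi-affine groups of fields of the same order are
isomorphic), as a hypothesis. -/
def GalT : Prop :=
  ∀ {p n : ℕ} [Fact p.Prime] (F : Type) [Field F] [Fintype F], Nat.card F = p ^ n → n ≠ 0 →
    Nonempty (↥(Cfsg.semiaffineGroup F) ≃* ↥(Cfsg.semiaffineGroup (GaloisField p n)))

/-- [EMB] from [GALT]. -/
theorem pkgEmb_of (hG : GalT) : PkgEmb.{u, v} := by
  intro p n _ N _ _ Q V _ _ ψ ρ hS hn hL hSemi
  obtain ⟨F, _, _, e, he⟩ := hSemi
  obtain ⟨f, hf⟩ := embF Q ψ ρ hS hn hL F e he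
  have hcard : Nat.card F = p ^ n := by
    rw [← Nat.card_congr e.toEquiv, ← Nat.card_congr ψ, hS.card]
  obtain ⟨E⟩ := hG F hcard hn
  exact ⟨E.toMonoidHom.comp f, E.injective.comp hf⟩

end Cfsg.Agent.Lib.Helper97.SAF
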