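-- Team project SAF (S4025), package [EMB] (helper97): the semi-affine embedding, unconditional
-- (EMBF of helper97 + GALT of helper10).
import Mathlib
import Cfsg.Agent.Lib.Helper49.SAF.Iface
import Cfsg.Agent.Lib.Helper97.SAF.EmbF
import Cfsg.Agent.Lib.Helper10.SAF.GalT

set_option autoImplicit false

namespace Cfsg.Agent.Lib.Helper97.SAF

open Cfsg.Agent.Lib.Helper49.SAFI

universe u v

/-- [EMB] -/
theorem pkgEmb : PkgEmb.{u, v} :=
  pkgEmb_of (fun F _ _ h hn => Cfsg.Agent.Lib.Helper10.SAF.pkgGalT F h hn)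

end Cfsg.Agent.Lib.Helper97.SAF
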